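import Cfsg.Agent.H134.PairFacts
import Cfsg.Agent.H412.OT.Defs

/-!
# S2539, part 3.1: involutions of the root system (helper876)

`neg_of_inv` : `D ∈ {D4, F4, E6, E7, E8}`, `w` an involution of the roots preserving the pairing, `P` a `w`-invariant set of
roots, every fixed root of `w` orthogonal to `P`, (simply laced) `⟨wa, a^∨⟩ ≠ 0` for `a ∈ P`: then `w a = -a` on `P`.
-/

set_option autoImplicit false

namespace Cfsg.Agent.H876.OT

open Cfsg.Lie Cfsg.Agent.H412.OT
open Cfsg.Agent.ChevalleyStructure Cfsg.Agent.ChevalleyStructure.RootCombGood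
  Cfsg.Agent.ChevalleyStructure.RootCombBase Cfsg.Agent.ChevalleyStructure.RootCombBridge
  Cfsg.Agent.ChevalleyStructure.RootCombTab Cfsg.Agent.ChevalleyStructure.RootWord

/-! ### Parity of counts -/

/-- parity of the number of `k < n` with `P k` -/
def oddLt (P : ℕ → Bool) (n : ℕ) : Bool :=
  Nat.rec (motive := fun _ => Bool) false (fun k ih => xor (P k) ih) n

theorem oddLt_spec (P : ℕ → Bool) : ∀ n, oddLt P n = true ↔ Odd ((Finset.range n).filter (fun k => P k = true)).card
  | 0 => by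
    show false = true ↔ _
    simp
  | n + 1 => by
    have ih := oddLt_spec P n
    show xor (P n) (oddLt P n) = true ↔ _
    rw [Finset.range_add_one, Finset.filter_insert]
    cases h : P n with
    | false =>
      rw [if_neg (by simp), ← ih]
      simp
    | true =>
      rw [if_pos rfl, Finset.card_insert_of_notMem (by simp), Nat.odd_add_one, ← ih]
      cases oddLt P n <;> simp

/-! ### Maps preserving the pairing -/

/-- an involution of the roots that preserves the pairing -/
structure PrMap (D : ChevalleyDatum) (w : ℕ → ℕ) : Prop where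
  lt : ∀ {r : ℕ}, r < D.nroots → w r < D.nroots
  pr : ∀ {r s : ℕ}, r < D.nroots → s < D.nroots → pr D (w r) (w s) = pr D r s
  inv : ∀ {r : ℕ}, r < D.nroots → w (w r) = r

variable {D : ChevalleyDatum}

theorem prMap_reflect (G : Good D) {i : ℕ} (hi : i < D.rank) : PrMap D (D.reflectRoot i) :=
  ⟨fun hr => G.reflect_lt hi hr, fun hr hs => car_reflect G hi hr hs, fun hr => G.reflect_reflect hi hr⟩

/-- the roots with all four Cartan integers `1` -/
def NN (D : ChevalleyDatum) (a b : ℕ) : Finset ℕ :=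
  (Finset.range D.nroots).filter fun g => pr D a g = 1 ∧ pr D b g = 1 ∧ pr D g a = 1 ∧ pr D g b = 1

theorem mem_NN {a b g : ℕ} : g ∈ NN D a b ↔ g < D.nroots ∧ pr D a g = 1 ∧ pr D b g = 1 ∧ pr D g a = 1 ∧ pr D g b = 1 := by
  rw [NN, Finset.mem_filter, Finset.mem_range]

theorem PrMap.map_NN {w : ℕ → ℕ} (h : PrMap D w) {a b g : ℕ} (ha : a < D.nroots) (hb : b < D.nroots)
    (hg : g ∈ NN D a b) : w g ∈ NN D (w a) (w b) := by
  rw [mem_NN] at hg ⊢
  obtain ⟨h0, h1, h2, h3, h4⟩ := hg
  exact ⟨h.lt h0, by rw [h.pr ha h0, h1], by rw [h.pr hb h0, h2], by rw [h.pr h0 ha, h3], by rw [h.pr h0 hb, h4]⟩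

theorem NN_comm (a b : ℕ) : NN D a b = NN D b a := by
  ext g
  rw [mem_NN, mem_NN]
  tauto

theorem PrMap.card_NN {w : ℕ → ℕ} (h : PrMap D w) {a b : ℕ} (ha : a < D.nroots) (hb : b < D.nroots) :
    (NN D (w a) (w b)).card = (NN D a b).card := by
  refine Finset.card_nbij' w w ?_ ?_ ?_ ?_
  · intro g hg
    have := h.map_NN (h.lt ha) (h.lt hb) hg
    rwa [h.inv ha, h.inv hb] at this
  · intro g hg
    exact h.map_NN ha hb hg
  · intro g hg
    exact h.inv (mem_NN.1 hg).1
  · intro g hg
    exact h.inv (mem_NN.1 hg).1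

/-- an involution of an odd set has a fixed point -/
theorem exists_fixed {S : Finset ℕ} (hS : Odd S.card) {w : ℕ → ℕ} (h1 : ∀ g ∈ S, w g ∈ S) (h2 : ∀ g ∈ S, w (w g) = g) :
    ∃ g ∈ S, w g = g := by
  by_contra hcon
  push Not at hcon
  have h3 : ∑ x ∈ S, (1 : ZMod 2) = 0 :=
    Finset.sum_involution (fun g _ => w g) (fun _ _ => by decide) (fun g hg _ => hcon g hg) (fun g hg => h1 g hg)
      (fun g hg => h2 g hg)
  rw [Finset.sum_const, nsmul_eq_mul, mul_one, ZMod.natCast_eq_zero_iff] at h3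
  exact (Nat.not_odd_iff_even.2 (even_iff_two_dvd.2 h3)) hS

/-! ### The table -/

/-- the pairing from the packed table -/
def carT (T : Tab) (r s : ℕ) : ℤ := isum (fun k => Int.mul (T.coroZ r k) (T.cartZ k s)) T.l

theorem carT_eq {T : Tab} (B : Bridged D T) {r s : ℕ} (hr : r < T.n) (hs : s < T.n) : carT T r s = pr D r s := by
  show carT T r s = car D r s
  unfold carT car
  rw [isum_eq, B.rank]
  refine Finset.sum_congr rfl fun k hk => ?_
  have hk := Finset.mem_range.1 hk
  show T.coroZ r k * T.cartZ k s = co D r k * D.cartan k s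
  rw [B.cartan k hk s hs]
  congr 1
  exact (B.co r hr k hk).symm

theorem cartN_iff {T : Tab} (B : Bridged D T) (G : Good D) {i s : ℕ} (hi : i < T.l) (hs : s < T.n) (m : ℕ) :
    Nat.beq (T.cartN i s) m = true ↔ pr D (T.simpN i) s = (m : ℤ) - 8 := by
  have h1 : pr D (T.simpN i) s = D.cartan i s := by
    rw [← B.simple i hi]
    exact car_simple G (by rw [B.rank]; exact hi) s
  rw [h1, B.cartan i hi s hs, cartZ_eq, Nat.beq_eq]
  constructor
  · intro h
    rw [h]
  · intro h
    omega

theorem ieq_iff {a b : ℤ} : ieq a b = true ↔ a = b := by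
  constructor
  · exact ieq_spec
  · rintro rfl
    cases a <;> exact Nat.beq_refl _

/-- the number of roots `g` with `⟨g, a^∨⟩ = ⟨g, b^∨⟩ = ⟨a, g^∨⟩ = ⟨b, g^∨⟩ = 1` is odd if `⟨a, b^∨⟩ = ⟨b, a^∨⟩ = 1`:
the check for `a` a simple root -/
def chkO (T : Tab) : Bool :=
  allLt (fun i => allLt (fun s =>
    or (not (and (Nat.beq (T.cartN i s) 9) (ieq (carT T s (T.simpN i)) 1)))
      (oddLt (fun g => and (Nat.beq (T.cartN i g) 9) <| and (ieq (carT T s g) 1) <|
        and (ieq (carT T g (T.simpN i)) 1) (ieq (carT T g s) 1)) T.n)) T.n) T.l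

theorem odd_simple {T : Tab} (B : Bridged D T) (G : Good D) (h : chkO T = true) {i s : ℕ} (hi : i < D.rank)
    (hs : s < D.nroots) (h1 : pr D (D.simple i) s = 1) (h2 : pr D s (D.simple i) = 1) :
    Odd (NN D (D.simple i) s).card := by
  have hi' : i < T.l := by rw [← B.rank]; exact hi
  have hs' : s < T.n := by rw [← B.nroots]; exact hs
  have hsi : D.simple i = T.simpN i := B.simple i hi'
  have hsl : T.simpN i < T.n := by rw [← hsi, ← B.nroots]; exact G.simple_lt hi
  rw [hsi] at h1 h2 ⊢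
  have h3 := allLt_spec (allLt_spec h i hi') s hs'
  rw [Bool.or_eq_true] at h3
  rcases h3 with h3 | h3
  · exfalso
    rw [Bool.not_eq_true', ← Bool.not_eq_true] at h3
    apply h3
    rw [Bool.and_eq_true, cartN_iff B G hi' hs', ieq_iff, carT_eq B hs' hsl, h1, h2]
    exact ⟨by norm_num, rfl⟩
  · rw [oddLt_spec] at h3
    have h4 : (Finset.range T.n).filter (fun g => (and (Nat.beq (T.cartN i g) 9) <| and (ieq (carT T s g) 1) <|
        and (ieq (carT T g (T.simpN i)) 1) (ieq (carT T g s) 1)) = true) = NN D (T.simpN i) s := by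
      ext g
      rw [Finset.mem_filter, Finset.mem_range, mem_NN, B.nroots]
      constructor
      · rintro ⟨hg, h5⟩
        simp only [Bool.and_eq_true] at h5
        rw [cartN_iff B G hi' hg, ieq_iff, ieq_iff, ieq_iff, carT_eq B hs' hg, carT_eq B hg hsl, carT_eq B hg hs'] at h5
        obtain ⟨h6, h7, h8, h9⟩ := h5
        exact ⟨hg, by rw [h6]; norm_num, h7, h8, h9⟩
      · rintro ⟨hg, h6, h7, h8, h9⟩
        refine ⟨hg, ?_⟩
        simp only [Bool.and_eq_true]
        rw [cartN_iff B G hi' hg, ieq_iff, ieq_iff, ieq_iff, carT_eq B hs' hg, carT_eq B hg hsl, carT_eq B hg hs', h6]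
        exact ⟨by norm_num, h7, h8, h9⟩
    rw [h4] at h3
    exact h3

theorem odd_NN (hD : D ∈ [chevG2, chevB2, chevD4, chevF4, chevE6, chevE7, chevE8]) {T : Tab} (B : Bridged D T)
    (h : chkO T = true) : ∀ a < D.nroots, ∀ b < D.nroots, pr D a b = 1 → pr D b a = 1 → Odd (NN D a b).card := by
  have G := RootComb.good_of_mem hD
  refine Reach.reach hD (fun a => ∀ b < D.nroots, pr D a b = 1 → pr D b a = 1 → Odd (NN D a b).card) ?_ ?_
  · intro i hi s hs h1 h2
    exact odd_simple B G h hi hs h1 h2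
  · intro i hi a ha ih b hb h1 h2
    have W := prMap_reflect G hi
    have hb' := W.lt hb
    have e : D.reflectRoot i (D.reflectRoot i b) = b := W.inv hb
    rw [← e] at h1 h2 ⊢
    rw [W.pr ha hb'] at h1
    rw [W.pr hb' ha] at h2
    rw [W.card_NN ha hb']
    exact ih _ hb' h1 h2

theorem bridgeD4 : Bridged chevD4 tabD4 :=
  bridged_of_check (by decide +kernel) (by decide +kernel) (by decide +kernel) (by decide +kernel)

theorem bridgeF4 : Bridged chevF4 tabF4 :=
  bridged_of_check (by decide +kernel) (by decide +kernel) (by decide +kernel) (by decide +kernel)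

theorem bridgeE6 : Bridged chevE6 tabE6 :=
  bridged_of_check (by decide +kernel) (by decide +kernel) (by decide +kernel) (by decide +kernel)

theorem bridgeE7 : Bridged chevE7 tabE7 :=
  bridged_of_check (by decide +kernel) (by decide +kernel) (by decide +kernel) (by decide +kernel)

theorem bridgeE8 : Bridged chevE8 tabE8 :=
  bridged_of_check (by decide +kernel) (by decide +kernel) (by decide +kernel) (by decide +kernel)

theorem chkO_D4 : chkO tabD4 = true := by decide +kernel
theorem chkO_F4 : chkO tabF4 = true := by decide +kernel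
theorem chkO_E6 : chkO tabE6 = true := by decide +kernel
theorem chkO_E7 : chkO tabE7 = true := by decide +kernel
theorem chkO_E8 : chkO tabE8 = true := by decide +kernel

/-! ### `F4`: orthogonal roots of the same length -/

/-- short roots of `F4` -/
def Sh (D : ChevalleyDatum) (a : ℕ) : Prop := ∃ s < D.nroots, pr D a s = 2 ∧ pr D s a = 1

theorem PrMap.sh {w : ℕ → ℕ} (h : PrMap D w) {a : ℕ} (ha : a < D.nroots) (hs : Sh D a) : Sh D (w a) := by
  obtain ⟨s, hs, h1, h2⟩ := hs
  exact ⟨w s, h.lt hs, by rw [h.pr ha hs, h1], by rw [h.pr hs ha, h2]⟩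

theorem PrMap.sh_iff {w : ℕ → ℕ} (h : PrMap D w) {a : ℕ} (ha : a < D.nroots) : Sh D (w a) ↔ Sh D a := by
  refine ⟨fun h1 => ?_, h.sh ha⟩
  have := h.sh (h.lt ha) h1
  rwa [h.inv ha] at this

/-- `m u = a + b` in the root lattice -/
def IsSum (D : ChevalleyDatum) (m : ℤ) (u a b : ℕ) : Prop := ∀ s < D.nroots, m * pr D s u = pr D s a + pr D s b

theorem PrMap.isSum {w : ℕ → ℕ} (h : PrMap D w) {m : ℤ} {u a b : ℕ} (hu : u < D.nroots) (ha : a < D.nroots)
    (hb : b < D.nroots) (H : IsSum D m u a b) : IsSum D m (w u) (w a) (w b) := by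
  have key : ∀ s < D.nroots, ∀ x < D.nroots, Cfsg.Agent.H412.OT.pr D s (w x) = Cfsg.Agent.H412.OT.pr D (w s) x := by
    intro s hs x hx
    rw [← h.pr hs (h.lt hx), h.inv hx]
  intro s hs
  rw [key s hs u hu, key s hs a ha, key s hs b hb]
  exact H _ (h.lt hs)

def shT (T : Tab) (a : ℕ) : Bool := anyLt (fun s => and (ieq (carT T a s) 2) (ieq (carT T s a) 1)) T.n

theorem anyLt_intro {P : ℕ → Bool} : ∀ {n : ℕ} {k : ℕ}, k < n → P k = true → anyLt P n = true
  | 0, k, hk, _ => absurd hk (Nat.not_lt_zero k)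
  | n + 1, k, hk, h => by
    show or (P n) (anyLt P n) = true
    rw [Bool.or_eq_true]
    rcases Nat.lt_succ_iff_lt_or_eq.1 hk with h1 | h1
    · exact Or.inr (anyLt_intro h1 h)
    · subst h1
      exact Or.inl h

theorem shT_iff {T : Tab} (B : Bridged D T) {a : ℕ} (ha : a < T.n) : shT T a = true ↔ Sh D a := by
  constructor
  · intro h
    obtain ⟨s, hs, h1⟩ := anyLt_spec h
    rw [Bool.and_eq_true, ieq_iff, ieq_iff, carT_eq B ha hs, carT_eq B hs ha] at h1
    exact ⟨s, by rw [B.nroots]; exact hs, h1.1, h1.2⟩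
  · rintro ⟨s, hs, h1, h2⟩
    rw [B.nroots] at hs
    refine anyLt_intro hs ?_
    rw [Bool.and_eq_true, ieq_iff, ieq_iff, carT_eq B ha hs, carT_eq B hs ha]
    exact ⟨h1, h2⟩

/-- the check for the sums of orthogonal roots -/
def chkS (T : Tab) : Bool :=
  allLt (fun i => allLt (fun s =>
    or (not (Nat.beq (T.cartN i s) 8)) <| or (xor (shT T (T.simpN i)) (shT T s)) <|
      anyLt (fun u => or (allLt (fun j => ieq (T.cartZ j u) (Int.add (T.cartZ j (T.simpN i)) (T.cartZ j s))) T.l)
        (allLt (fun j => ieq (Int.mul 2 (T.cartZ j u)) (Int.add (T.cartZ j (T.simpN i)) (T.cartZ j s))) T.l)) T.n) T.n) T.l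

theorem isSum_of_cartan {m : ℤ} {u a b : ℕ} (h : ∀ j < D.rank, m * D.cartan j u = D.cartan j a + D.cartan j b) :
    IsSum D m u a b := by
  intro s hs
  show m * car D s u = car D s a + car D s b
  unfold car
  rw [Finset.mul_sum, ← Finset.sum_add_distrib]
  refine Finset.sum_congr rfl fun k hk => ?_
  rw [← mul_add, ← h k (Finset.mem_range.1 hk)]
  ring

theorem sum_orth (hD : D ∈ [chevG2, chevB2, chevD4, chevF4, chevE6, chevE7, chevE8]) {T : Tab} (B : Bridged D T)
    (h : chkS T = true) : ∀ a < D.nroots, ∀ b < D.nroots, pr D a b = 0 → (Sh D a ↔ Sh D b) →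
      ∃ u < D.nroots, ∃ m : ℤ, (m = 1 ∨ m = 2) ∧ IsSum D m u a b := by
  have G := RootComb.good_of_mem hD
  refine Reach.reach hD (fun a => ∀ b < D.nroots, pr D a b = 0 → (Sh D a ↔ Sh D b) →
      ∃ u < D.nroots, ∃ m : ℤ, (m = 1 ∨ m = 2) ∧ IsSum D m u a b) ?_ ?_
  · intro i hi s hs h1 h2
    have hi' : i < T.l := by rw [← B.rank]; exact hi
    have hs' : s < T.n := by rw [← B.nroots]; exact hs
    have hsi : D.simple i = T.simpN i := B.simple i hi'
    have hsl : T.simpN i < T.n := by rw [← hsi, ← B.nroots]; exact G.simple_lt hi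
    rw [hsi] at h1 h2 ⊢
    have h3 := allLt_spec (allLt_spec h i hi') s hs'
    rw [Bool.or_eq_true, Bool.or_eq_true] at h3
    rcases h3 with h3 | h3 | h3
    · exfalso
      rw [Bool.not_eq_true', ← Bool.not_eq_true] at h3
      apply h3
      rw [cartN_iff B G hi' hs', h1]
      norm_num
    · exfalso
      rw [← shT_iff B hsl, ← shT_iff B hs'] at h2
      cases e1 : shT T (T.simpN i) <;> cases e2 : shT T s <;> simp [e1, e2] at h2 h3
    · obtain ⟨u, hu, h4⟩ := anyLt_spec h3
      rw [Bool.or_eq_true] at h4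
      refine ⟨u, by rw [B.nroots]; exact hu, ?_⟩
      rcases h4 with h4 | h4
      · refine ⟨1, Or.inl rfl, isSum_of_cartan fun j hj => ?_⟩
        have hj' : j < T.l := by rw [← B.rank]; exact hj
        have h5 := ieq_spec (allLt_spec h4 j hj')
        rw [B.cartan j hj' u hu, B.cartan j hj' _ hsl, B.cartan j hj' s hs', one_mul]
        exact h5
      · refine ⟨2, Or.inr rfl, isSum_of_cartan fun j hj => ?_⟩
        have hj' : j < T.l := by rw [← B.rank]; exact hj
        have h5 := ieq_spec (allLt_spec h4 j hj')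
        rw [B.cartan j hj' u hu, B.cartan j hj' _ hsl, B.cartan j hj' s hs']
        exact h5
  · intro i hi a ha ih b hb h1 h2
    have W := prMap_reflect G hi
    have hb' := W.lt hb
    have e : D.reflectRoot i (D.reflectRoot i b) = b := W.inv hb
    rw [← e] at h1 h2 ⊢
    rw [W.pr ha hb'] at h1
    rw [W.sh_iff ha, W.sh_iff hb'] at h2
    obtain ⟨u, hu, m, hm, h3⟩ := ih _ hb' h1 h2
    exact ⟨D.reflectRoot i u, W.lt hu, m, hm, W.isSum hu ha hb' h3⟩

theorem chkS_F4 : chkS tabF4 = true := by decide +kernel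

/-! ### Bounds, simply laced data -/

def chkB (T : Tab) : Bool := allLt (fun i => allLt (fun s => and (Nat.ble 6 (T.cartN i s)) (Nat.ble (T.cartN i s) 10)) T.n) T.l

theorem bound_pr (hD : D ∈ [chevG2, chevB2, chevD4, chevF4, chevE6, chevE7, chevE8]) {T : Tab} (B : Bridged D T)
    (h : chkB T = true) : ∀ a < D.nroots, ∀ b < D.nroots, -2 ≤ pr D a b ∧ pr D a b ≤ 2 := by
  have G := RootComb.good_of_mem hD
  refine Reach.reach hD (fun a => ∀ b < D.nroots, -2 ≤ pr D a b ∧ pr D a b ≤ 2) ?_ ?_
  · intro i hi s hs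
    have hi' : i < T.l := by rw [← B.rank]; exact hi
    have hs' : s < T.n := by rw [← B.nroots]; exact hs
    have h1 : pr D (D.simple i) s = D.cartan i s := car_simple G hi s
    have h2 := allLt_spec (allLt_spec h i hi') s hs'
    rw [Bool.and_eq_true, Nat.ble_eq, Nat.ble_eq] at h2
    rw [h1, B.cartan i hi' s hs', cartZ_eq]
    omega
  · intro i hi a ha ih b hb
    have W := prMap_reflect G hi
    have e : D.reflectRoot i (D.reflectRoot i b) = b := W.inv hb
    rw [← e, W.pr ha (W.lt hb)]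
    exact ih _ (W.lt hb)

/-- the Cartan matrix is symmetric -/
def SLc (D : ChevalleyDatum) : Prop := ∀ i < D.rank, ∀ j < D.rank, D.cartan i (D.simple j) = D.cartan j (D.simple i)

theorem car_simple_symm (G : Good D) (h : SLc D) {s : ℕ} (hs : s < D.nroots) :
    ∀ i < D.rank, D.cartan i s = car D s (D.simple i) := by
  refine root_induction G (P := fun s => ∀ i < D.rank, D.cartan i s = car D s (D.simple i)) ?_ ?_ s hs
  · intro j hj i hi
    rw [car_simple G hj, h i hi j hj]
  · intro k hk s hs ih i hi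
    rw [G.cartan_reflect hk hs hi, car_reflect_left G hk hs, ih i hi, ih k hk, h k hk i hi]

theorem pr_symm (G : Good D) (h : SLc D) {r s : ℕ} (hr : r < D.nroots) (hs : s < D.nroots) :
    pr D r s = pr D s r := by
  show car D r s = car D s r
  refine root_induction G (P := fun r => ∀ s < D.nroots, car D r s = car D s r) ?_ ?_ r hr s hs
  · intro i hi s hs
    rw [car_simple G hi, car_simple_symm G h hs i hi]
  · intro i hi r hr ih s hs
    have h1 := car_reflect G hi (G.reflect_lt hi hs) hr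
    have h2 := car_reflect G hi hr (G.reflect_lt hi hs)
    rw [G.reflect_reflect hi hs] at h1 h2
    rw [h2, h1]
    exact ih _ (G.reflect_lt hi hs)

theorem slc_D4 : SLc chevD4 := by unfold SLc; decide +kernel
theorem slc_E6 : SLc chevE6 := by unfold SLc; decide +kernel
theorem slc_E7 : SLc chevE7 := by unfold SLc; decide +kernel
theorem slc_E8 : SLc chevE8 := by unfold SLc; decide +kernel

theorem chkB_D4 : chkB tabD4 = true := by decide +kernel
theorem chkB_F4 : chkB tabF4 = true := by decide +kernel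
theorem chkB_E6 : chkB tabE6 = true := by decide +kernel
theorem chkB_E7 : chkB tabE7 = true := by decide +kernel
theorem chkB_E8 : chkB tabE8 = true := by decide +kernel

/-! ### The five data -/

/-- `D` is one of `D4`, `F4`, `E6`, `E7`, `E8` -/
def Five (D : ChevalleyDatum) : Prop := D = chevD4 ∨ D = chevF4 ∨ D = chevE6 ∨ D = chevE7 ∨ D = chevE8

theorem Five.mem (h : Five D) : D ∈ [chevG2, chevB2, chevD4, chevF4, chevE6, chevE7, chevE8] := by
  simp only [List.mem_cons, List.not_mem_nil, or_false]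
  unfold Five at h
  tauto

theorem Five.odd (h : Five D) {a b : ℕ} (ha : a < D.nroots) (hb : b < D.nroots) (h1 : pr D a b = 1)
    (h2 : pr D b a = 1) : Odd (NN D a b).card := by
  have hm := h.mem
  rcases h with rfl | rfl | rfl | rfl | rfl
  · exact odd_NN hm bridgeD4 chkO_D4 a ha b hb h1 h2
  · exact odd_NN hm bridgeF4 chkO_F4 a ha b hb h1 h2
  · exact odd_NN hm bridgeE6 chkO_E6 a ha b hb h1 h2
  · exact odd_NN hm bridgeE7 chkO_E7 a ha b hb h1 h2
  · exact odd_NN hm bridgeE8 chkO_E8 a ha b hb h1 h2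

theorem Five.bound (h : Five D) {a b : ℕ} (ha : a < D.nroots) (hb : b < D.nroots) : -2 ≤ pr D a b ∧ pr D a b ≤ 2 := by
  have hm := h.mem
  rcases h with rfl | rfl | rfl | rfl | rfl
  · exact bound_pr hm bridgeD4 chkB_D4 a ha b hb
  · exact bound_pr hm bridgeF4 chkB_F4 a ha b hb
  · exact bound_pr hm bridgeE6 chkB_E6 a ha b hb
  · exact bound_pr hm bridgeE7 chkB_E7 a ha b hb
  · exact bound_pr hm bridgeE8 chkB_E8 a ha b hb

theorem Five.slc (h : Five D) (h4 : D ≠ chevF4) : SLc D := by
  rcases h with rfl | rfl | rfl | rfl | rfl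
  · exact slc_D4
  · exact absurd rfl h4
  · exact slc_E6
  · exact slc_E7
  · exact slc_E8

theorem Five.symm (h : Five D) (h4 : D ≠ chevF4) {a b : ℕ} (ha : a < D.nroots) (hb : b < D.nroots) :
    pr D a b = pr D b a := pr_symm (RootComb.good_of_mem h.mem) (h.slc h4) ha hb

theorem Five.self (h : Five D) {a : ℕ} (ha : a < D.nroots) : pr D a a = 2 := (RootComb.good_of_mem h.mem).car_self ha

theorem Five.neg_right (h : Five D) {a b : ℕ} (hb : b < D.nroots) : pr D a (D.neg b) = - pr D a b :=
  car_neg_right (RootComb.good_of_mem h.mem) a hb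

theorem Five.neg_left (h : Five D) {a b : ℕ} (ha : a < D.nroots) : pr D (D.neg a) b = - pr D a b :=
  car_neg_left (RootComb.good_of_mem h.mem) ha b

theorem Five.pair (h : Five D) {r s : ℕ} (hr : r < D.nroots) (hs : s < D.nroots) (h1 : s ≠ r) (h2 : s ≠ D.neg r) :
    0 ≤ pr D r s * pr D s r ∧ pr D r s * pr D s r ≤ 3 ∧ (pr D r s = 0 ↔ pr D s r = 0) :=
  Cfsg.Agent.H134.PairFacts.pair h.mem hr hs h1 h2

/-- roots are determined by the pairings -/
theorem Five.eq_of_pr (h : Five D) {g g' : ℕ} (hg : g < D.nroots) (hg' : g' < D.nroots)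
    (H : ∀ s < D.nroots, pr D s g = pr D s g') : g = g' := by
  by_contra hne
  have e1 : pr D g g' = 2 := by rw [← H g hg, h.self hg]
  have e2 : pr D g' g = 2 := by rw [H g' hg', h.self hg']
  by_cases h1 : g' = D.neg g
  · rw [h1, h.neg_right hg, h.self hg] at e1
    norm_num at e1
  · have h2 := (h.pair hg hg' (Ne.symm hne) h1).2.1
    rw [e1, e2] at h2
    norm_num at h2

/-- pairing zero is symmetric -/
theorem Five.zero_symm (h : Five D) {r s : ℕ} (hr : r < D.nroots) (hs : s < D.nroots) (h0 : pr D r s = 0) :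
    pr D s r = 0 := by
  by_cases h1 : s = r
  · rw [h1] at h0 ⊢
    exact h0
  by_cases h2 : s = D.neg r
  · rw [h2, h.neg_right hr, h.self hr] at h0
    norm_num at h0
  · exact (h.pair hr hs h1 h2).2.2.1 h0

/-- a root that is a sum `a + w a` (or half of it) is fixed by `w` -/
theorem Five.fix_sum (h : Five D) {w : ℕ → ℕ} (hw : PrMap D w) {m : ℤ} (hm : m ≠ 0) {u a : ℕ} (hu : u < D.nroots)
    (ha : a < D.nroots) (H : IsSum D m u a (w a)) : w u = u := by
  have h1 := hw.isSum hu ha (hw.lt ha) H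
  rw [hw.inv ha] at h1
  refine h.eq_of_pr (hw.lt hu) hu fun s hs => ?_
  have h2 := h1 s hs
  have h3 := H s hs
  exact mul_left_cancel₀ hm (by rw [h2, h3, add_comm])

/-- **3.1** -/
theorem Five.neg_of_inv (h : Five D) {w : ℕ → ℕ} (hw : PrMap D w) {a : ℕ} (ha : a < D.nroots)
    (hfix : ∀ g < D.nroots, w g = g → pr D g a = 0) (horth : D ≠ chevF4 → pr D a (w a) ≠ 0) : w a = D.neg a := by
  have G := RootComb.good_of_mem h.mem
  have hb := hw.lt ha
  have hsym : pr D (w a) a = pr D a (w a) := by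
    have := hw.pr ha hb
    rw [hw.inv ha] at this
    exact this
  have hfix' : ∀ g < D.nroots, w g = g → pr D a g = 0 := fun g hg hgw => h.zero_symm hg ha (hfix g hg hgw)
  by_contra hneg
  have hne : w a ≠ a := by
    intro h1
    have := hfix a ha h1
    rw [h.self ha] at this
    norm_num at this
  have hp := (h.pair ha hb hne hneg).2.1
  rw [hsym] at hp
  set k := pr D a (w a) with hk
  have hk1 : -1 ≤ k ∧ k ≤ 1 := by constructor <;> nlinarith
  have hk2 : k = -1 ∨ k = 0 ∨ k = 1 := by omega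
  rcases hk2 with h1 | h1 | h1
  · -- `a + w a` is a root
    obtain ⟨u, hu, -, h2⟩ := exists_reflection G ha (w a) hb
    have h3 : IsSum D 1 u a (w a) := isSum_of_cartan fun j hj => by
      have h4 := h2 j hj
      have h5 : car D a (w a) = -1 := hk.symm.trans h1
      rw [h5] at h4
      rw [h4]
      ring
    have h4 := hfix' u hu (h.fix_sum hw one_ne_zero hu ha h3)
    have h5 := h3 a ha
    rw [h4, h.self ha, ← hk, h1] at h5
    norm_num at h5
  · by_cases hF : D = chevF4
    · have hsh : Sh D a ↔ Sh D (w a) := (hw.sh_iff ha).symm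
      subst hF
      obtain ⟨u, hu, m, hm, h3⟩ := sum_orth h.mem bridgeF4 chkS_F4 a ha (w a) hb h1 hsh
      have hm0 : m ≠ 0 := by rcases hm with rfl | rfl <;> norm_num
      have h4 := hfix' u hu (h.fix_sum hw hm0 hu ha h3)
      have h5 := h3 a ha
      rw [h4, h.self ha, ← hk, h1] at h5
      norm_num at h5
    · exact horth hF h1
  · obtain ⟨g, hg, hgw⟩ := exists_fixed (h.odd ha hb h1 (hsym.trans h1)) (w := w)
      (fun g hg => by
        have := hw.map_NN ha hb hg
        rwa [hw.inv ha, NN_comm] at this)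
      (fun g hg => hw.inv (mem_NN.1 hg).1)
    have h2 := mem_NN.1 hg
    have h3 := hfix g h2.1 hgw
    rw [h2.2.2.2.1] at h3
    norm_num at h3

end Cfsg.Agent.H876.OT
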